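import Mathlib

/-!
# A concrete field with sixteen elements (helper93)

`F₂[x]/(x⁴ + x + 1)`, the elements being coded by the numbers `0 … 15` (bit `i` = coefficient of `xⁱ`).
-/

set_option autoImplicit false
set_option maxRecDepth 100000

namespace Cfsg.Agent.Lib.Helper93.U34

/-- the field with sixteen elements -/
structure F16 where
  /-- the code -/
  v : Fin 16
  deriving DecidableEq

namespace F16

instance instFintypeF16 : Fintype F16 :=
  Fintype.ofEquiv (Fin 16) ⟨F16.mk, F16.v, fun _ => rfl, fun _ => rfl⟩

/-- the multiplication table, packed -/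
def MT : ℕ := 0xa5783ce1b4692df05ba48679c23d1fe07ae36bf258c149d0843fd16a2e957bc0386d92c74f1ae5b0c6b1285f394ed7a0e7f6c5d4a3b28190192a7f4cd5e6b380bc5243ad618f9e70428ef93517dbac6063c914be8d27fa509d15ae26fb73c8402147ed8b9afc5630df9b5713eca86420fedcba98765432100000000000000000

/-- the table of inverses, packed -/
def IT : ℕ := 0x834a5c2f67bde910

/-- element with a given code -/
def ofN (a : ℕ) : F16 := ⟨Fin.ofNat 16 a⟩

/-- addition -/
def add (a b : F16) : F16 := ofN (a.v.val ^^^ b.v.val)

/-- multiplication -/
def mul (a b : F16) : F16 := ofN ((MT >>> (4 * (16 * a.v.val + b.v.val))) &&& 15)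

/-- inversion -/
def inv (a : F16) : F16 := ofN ((IT >>> (4 * a.v.val)) &&& 15)

instance : Add F16 := ⟨add⟩
instance : Mul F16 := ⟨mul⟩
instance : Neg F16 := ⟨id⟩
instance : Inv F16 := ⟨inv⟩
instance : Zero F16 := ⟨ofN 0⟩
instance : One F16 := ⟨ofN 1⟩

instance instFieldF16 : Field F16 :=
  Field.ofMinimalAxioms F16 (by decide +kernel) (by decide +kernel) (by decide +kernel)
    (by decide +kernel) (by decide +kernel) (by decide +kernel)
    (by decide +kernel) (by decide +kernel) (by decide +kernel) (by decide +kernel)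

theorem card_eq : Fintype.card F16 = 16 := by decide +kernel

end F16

end Cfsg.Agent.Lib.Helper93.U34
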