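import Cfsg.Agent.Lib.Helper93.PGExt

/-!
# Generic tools: chains of coded products, homomorphisms from diagonal subgroups (helper93)
-/

set_option autoImplicit false

namespace Cfsg.Agent.Lib.Helper93.U34

section chain

variable {M : Type*} [Monoid M] [DecidableEq M] (mat : ℕ → M)

/-- check of a chain of products of coded elements -/
def chainG (A : ℕ → ℕ) : ℕ → List ℕ → List ℕ → Bool
  | _, [], [] => true
  | P, x :: w, P' :: Ps => decide (mat P * mat (A x) = mat P') && chainG A P' w Ps
  | _, _, _ => false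

theorem chainG_sound (A : ℕ → ℕ) : ∀ (w Ps : List ℕ) (P : ℕ), chainG mat A P w Ps = true →
    mat P * (w.map fun x => mat (A x)).prod = mat (Ps.getLastD P) := by
  intro w
  induction w with
  | nil =>
    intro Ps P h
    cases Ps with
    | nil => simp
    | cons a l => simp [chainG] at h
  | cons x w ih =>
    intro Ps P h
    cases Ps with
    | nil => simp [chainG] at h
    | cons P' Ps =>
      simp only [chainG, Bool.and_eq_true, decide_eq_true_eq] at h
      rw [List.map_cons, List.prod_cons, ← mul_assoc, h.1, ih Ps P' h.2, List.getLastD_cons]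

theorem prod_of_chainG (A : ℕ → ℕ) (I : ℕ) (hI : mat I = 1) (w Ps : List ℕ)
    (h : chainG mat A I w Ps = true) : (w.map fun x => mat (A x)).prod = mat (Ps.getLastD I) := by
  have := chainG_sound mat A w Ps I h
  rwa [hI, one_mul] at this

theorem pow_of_chainG (I : ℕ) (hI : mat I = 1) (C k : ℕ) (Ps : List ℕ)
    (h : chainG mat (fun _ => C) I (List.replicate k 0) Ps = true) :
    mat C ^ k = mat (Ps.getLastD I) := by
  have := prod_of_chainG mat (fun _ => C) I hI _ _ h
  rwa [List.map_replicate, List.prod_replicate] at this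

end chain

/-- a subgroup of a product which projects bijectively to the first factor is the graph of a
homomorphism -/
theorem exists_hom_of_diag {A B : Type*} [Group A] [Group B] [Finite A] (D : Subgroup (A × B))
    (hD : Finite D) (hc : Nat.card D ≤ Nat.card A) (hs : ∀ a : A, ∃ d ∈ D, d.1 = a) :
    ∃ ρ : A →* B, ∀ d ∈ D, ρ d.1 = d.2 := by
  let f : D →* A := (MonoidHom.fst A B).comp D.subtype
  have hf : Function.Surjective f := by
    intro a
    obtain ⟨d, hd, rfl⟩ := hs a
    exact ⟨⟨d, hd⟩, rfl⟩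
  have hb : Function.Bijective f :=
    (Nat.bijective_iff_surjective_and_card f).mpr
      ⟨hf, le_antisymm hc (Nat.card_le_card_of_surjective f hf)⟩
  let e : D ≃* A := MulEquiv.ofBijective f hb
  refine ⟨((MonoidHom.snd A B).comp D.subtype).comp e.symm.toMonoidHom, ?_⟩
  intro d hd
  have h1 : e ⟨d, hd⟩ = d.1 := rfl
  show ((e.symm d.1 : D) : A × B).2 = d.2
  rw [← h1, MulEquiv.symm_apply_apply]

section fix

variable {F : Type*} [Field F] {n : ℕ} {L : Type*} [Group L] [Finite L]

/-- if `N (M - 1) = 1`, then `M` fixes no nonzero vector -/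
theorem no_fix_of_inv (M N : Matrix (Fin n) (Fin n) F) (h : N * (M - 1) = 1) (v : Fin n → F)
    (hv : M.mulVec v = v) : v = 0 := by
  have h0 : (M - 1).mulVec v = 0 := by
    rw [Matrix.sub_mulVec, Matrix.one_mulVec, hv, sub_self]
  calc v = (1 : Matrix (Fin n) (Fin n) F).mulVec v := (Matrix.one_mulVec v).symm
    _ = N.mulVec ((M - 1).mulVec v) := by rw [Matrix.mulVec_mulVec, h]
    _ = 0 := by rw [h0, Matrix.mulVec_zero]

/-- an element of order `s` (`s` dividing the order exactly once) fixes no nonzero vector if one such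
element does -/
theorem no_fix_of_conj' (ρ : L →* GL (Fin n) F) (s m : ℕ) (hs : s.Prime)
    (hcard : Nat.card L = s * m) (hm : ¬ s ∣ m) (x : L) (hx : orderOf x = s)
    (hfx : ∀ v : Fin n → F, (ρ x : Matrix (Fin n) (Fin n) F).mulVec v = v → v = 0)
    (g : L) (hg : orderOf g = s) (v : Fin n → F)
    (hv : (ρ g : Matrix (Fin n) (Fin n) F).mulVec v = v) : v = 0 := by
  obtain ⟨c, k, hk⟩ := PGExt.exists_conj_pow s m hs hcard hm g x hg hx
  have h1 : (ρ (c * g * c⁻¹) : Matrix (Fin n) (Fin n) F).mulVec
      ((ρ c : Matrix (Fin n) (Fin n) F).mulVec v) = (ρ c : Matrix (Fin n) (Fin n) F).mulVec v := by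
    rw [Matrix.mulVec_mulVec, ← Units.val_mul, ← map_mul, inv_mul_cancel_right, map_mul,
      Units.val_mul, ← Matrix.mulVec_mulVec, hv]
  have h2 : ∀ j : ℕ, (ρ ((c * g * c⁻¹) ^ j) : Matrix (Fin n) (Fin n) F).mulVec
      ((ρ c : Matrix (Fin n) (Fin n) F).mulVec v) = (ρ c : Matrix (Fin n) (Fin n) F).mulVec v := by
    intro j
    induction j with
    | zero => rw [pow_zero, map_one, Units.val_one, Matrix.one_mulVec]
    | succ j ih => rw [pow_succ, map_mul, Units.val_mul, ← Matrix.mulVec_mulVec, h1, ih]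
  have h3 := hfx _ (hk ▸ h2 k)
  calc v = (ρ c⁻¹ : Matrix (Fin n) (Fin n) F).mulVec ((ρ c : Matrix (Fin n) (Fin n) F).mulVec v) := by
        rw [Matrix.mulVec_mulVec, ← Units.val_mul, ← map_mul, inv_mul_cancel, map_one, Units.val_one,
          Matrix.one_mulVec]
    _ = 0 := by rw [h3, Matrix.mulVec_zero]

end fix

end Cfsg.Agent.Lib.Helper93.U34
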