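import Cfsg.Agent.Lib.Helper28.TCChain

set_option autoImplicit false

namespace Cfsg.Agent.Lib.Helper93.U34

/-- relator words for `U₃(4)`; the letters `0 … 4` are `t, t⁻¹, u, u⁻¹, w` (`t` of order 15 in the torus,
`u` of order 4 in the unipotent radical, `w` the Weyl involution) -/
def W : List (List ℕ) := [
  [0, 0, 0, 0, 0, 0, 0, 0, 0, 0, 0, 0, 0, 0, 0],
  [0, 2, 1, 2, 0, 2, 1, 3],
  [0, 0, 0, 0, 2, 1, 2, 1, 1, 1, 2],
  [0, 0, 0, 0, 4, 0, 4],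
  [2, 2, 4, 2, 2, 4, 3, 3, 4],
  [0, 4, 3, 4, 3, 0, 4, 3, 4, 3]]
/-- inverse letters -/
def oinv : ℕ → ℕ
  | 0 => 1
  | 1 => 0
  | 2 => 3
  | 3 => 2
  | x => x

end Cfsg.Agent.Lib.Helper93.U34
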