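import Cfsg.Agent.Lib.Helper5.SUCenter
import Cfsg.Agent.Lib.Helper93.HeC.Gen
import Cfsg.Agent.Lib.Helper93.U34.F16
import Cfsg.Agent.Lib.Helper93.U34.Gen
import Cfsg.Agent.Lib.Helper93.U34.Data
import Cfsg.Agent.Lib.Helper93.U34.W

/-!
# `SU₃(4)` over the concrete field, generated by five letters (helper93)
-/

set_option autoImplicit false
set_option maxRecDepth 100000

namespace Cfsg.Agent.Lib.Helper93.U34

open Cfsg.Agent.Lib.Helper28 Cfsg.Agent.Lib.Helper5 Cfsg.Agent.Lib.Helper93.HeC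

abbrev M3 : Type := Matrix (Fin 3) (Fin 3) F16
abbrev SU3 : Type := ↥(Cfsg.SU 3 F16 4)

/-- decoding of `3 × 3` matrices -/
def mat3 (T : ℕ) : M3 := Matrix.of fun i j => F16.ofN ((T >>> (4 * (3 * i.val + j.val))) &&& 15)

theorem mat3_ID : mat3 ID3 = 1 := by decide +kernel

theorem hF16 : Fintype.card F16 = 4 ^ 2 := F16.card_eq

theorem A_unit : ∀ T ∈ ID3 :: AT, (mat3 T).transpose * (mat3 T).map (· ^ 4) = 1 := by decide +kernel

theorem A_det0 : ∀ T ∈ ID3 :: AT,
    mat3 T 0 0 * mat3 T 1 1 * mat3 T 2 2 - mat3 T 0 0 * mat3 T 1 2 * mat3 T 2 1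
      - mat3 T 0 1 * mat3 T 1 0 * mat3 T 2 2 + mat3 T 0 1 * mat3 T 1 2 * mat3 T 2 0
      + mat3 T 0 2 * mat3 T 1 0 * mat3 T 2 1 - mat3 T 0 2 * mat3 T 1 1 * mat3 T 2 0 = 1 := by
  decide +kernel

theorem A_det (T : ℕ) (hT : T ∈ ID3 :: AT) : (mat3 T).det = 1 := by
  rw [Matrix.det_fin_three]
  exact A_det0 T hT

theorem AT_mem (k : ℕ) : AT.getD k ID3 ∈ ID3 :: AT := by
  by_cases h : k < AT.length
  · rw [List.getD_eq_getElem _ _ h]; exact List.mem_cons_of_mem _ (List.getElem_mem h)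
  · rw [List.getD_eq_default _ _ (Nat.le_of_not_lt h)]; exact List.mem_cons_self

/-- the matrices of the letters -/
def Ax (x : ℕ) : M3 := mat3 (AT.getD x ID3)

/-- the letters in `SU₃(4)` -/
def vA (x : ℕ) : SU3 :=
  mkSU (Ax x) (A_det _ (AT_mem x)) ((preserves_hermForm_iff hF16 _).2 (A_unit _ (AT_mem x)))

theorem coe_vA (x : ℕ) : (vA x).1.1 = Ax x := rfl

theorem coe_evalWA (w : List ℕ) : (evalW vA w).1.1 = (w.map Ax).prod := by
  induction w with
  | nil => rfl
  | cons x w ih =>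
    rw [evalW_cons, Subgroup.coe_mul, Matrix.SpecialLinearGroup.coe_mul, coe_vA, ih, List.map_cons,
      List.prod_cons]

theorem wordA (w Ps : List ℕ) (h : chainG mat3 (fun k => AT.getD k ID3) ID3 w Ps = true) :
    (evalW vA w).1.1 = mat3 (Ps.getLastD ID3) := by
  rw [coe_evalWA]
  exact prod_of_chainG mat3 _ ID3 mat3_ID w Ps h

theorem rchA_ok : ∀ i < W.length,
    chainG mat3 (fun k => AT.getD k ID3) ID3 (W.getD i []) (rchA.getD i []) = true ∧
    (rchA.getD i []).getLastD ID3 = ID3 := by decide +kernel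

theorem vA_W : ∀ w ∈ W, evalW vA w = 1 := by
  intro w hw
  obtain ⟨i, hi, rfl⟩ := List.getElem_of_mem hw
  obtain ⟨h1, h2⟩ := rchA_ok i hi
  rw [List.getD_eq_getElem _ _ hi] at h1
  apply SU_ext
  rw [wordA _ _ h1, h2, mat3_ID]
  rfl

theorem A_inv : ∀ y < 5, Ax y * Ax (oinv y) = 1 := by decide +kernel

theorem vA_oinv : ∀ y < 5, vA (oinv y) = (vA y)⁻¹ := by
  intro y hy
  have h : vA y * vA (oinv y) = 1 := by
    apply SU_ext
    rw [Subgroup.coe_mul, Matrix.SpecialLinearGroup.coe_mul, coe_vA, coe_vA, A_inv y hy]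
    rfl
  exact eq_inv_of_mul_eq_one_right h

/-- row vectors (a synonym, to keep other actions away) -/
def V3 : Type := Fin 3 → F16

/-- multiplication of a row vector by a matrix -/
def vm (v : V3) (M : M3) : V3 := Matrix.vecMul (v : Fin 3 → F16) M

theorem vm_one (v : V3) : vm v 1 = v := Matrix.vecMul_one _
theorem vm_vm (v : V3) (M N : M3) : vm (vm v M) N = vm v (M * N) := Matrix.vecMul_vecMul _ _ _

/-- the action on row vectors -/
instance actA : MulAction SU3 V3 where
  smul g v := vm v (g⁻¹).1.1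
  one_smul v := by
    show vm v ((1 : SU3)⁻¹).1.1 = v
    rw [inv_one]
    exact vm_one v
  mul_smul g h v := by
    show vm v ((g * h)⁻¹).1.1 = vm (vm v (h⁻¹).1.1) (g⁻¹).1.1
    rw [mul_inv_rev, Subgroup.coe_mul, Matrix.SpecialLinearGroup.coe_mul, vm_vm]

theorem inv_smul_defA (g : SU3) (v : V3) : g⁻¹ • v = vm v g.1.1 := by
  show vm v ((g⁻¹)⁻¹).1.1 = _
  rw [inv_inv]

/-- the code of a vector -/
def code (v : V3) : ℕ := (v 0).v.val + 16 * (v 1).v.val + 256 * (v 2).v.val

/-- the vector of a code -/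
def enc (c : ℕ) : V3 := fun i => F16.ofN (c >>> (4 * i.val))

theorem enc_code0 : ∀ a b c : Fin 16,
    F16.ofN ((a.val + 16 * b.val + 256 * c.val) >>> (4 * (0 : Fin 3).val)) = ⟨a⟩ ∧
    F16.ofN ((a.val + 16 * b.val + 256 * c.val) >>> (4 * (1 : Fin 3).val)) = ⟨b⟩ ∧
    F16.ofN ((a.val + 16 * b.val + 256 * c.val) >>> (4 * (2 : Fin 3).val)) = ⟨c⟩ := by decide +kernel

theorem enc_code (v : V3) : enc (code v) = v := by
  obtain ⟨h0, h1, h2⟩ := enc_code0 (v 0).v (v 1).v (v 2).v
  funext i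
  fin_cases i
  · exact h0
  · exact h1
  · exact h2

theorem code_inj : Function.Injective code := fun a b h => by
  rw [← enc_code a, ← enc_code b, h]

theorem code_enc0 : allBelow (fun c => decide (code (enc c) = c)) 4096 = true := by decide +kernel

theorem code_enc : ∀ c < 4096, code (enc c) = c := fun c hc =>
  of_decide_eq_true (allBelow_iff.mp code_enc0 c hc)

/-- the table of a letter -/
def tabA (x c : ℕ) : ℕ := Nat.land (Nat.shiftRight (tabP x) (Nat.mul 12 c)) 4095

instance instDecEqV3 : DecidableEq V3 := inferInstanceAs (DecidableEq (Fin 3 → F16))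

theorem bridge0 : ∀ x < 5, allBelow (fun c =>
    decide (vm (enc c) (Ax x) = enc (tabA x c) ∧ tabA x c < 4096)) 4096 = true := by decide +kernel

theorem bridge (x : ℕ) (hx : x < 5) (c : ℕ) (hc : c < 4096) :
    vm (enc c) (Ax x) = enc (tabA x c) ∧ tabA x c < 4096 :=
  of_decide_eq_true (allBelow_iff.mp (bridge0 x hx) c hc)

/-- tracing a word -/
def trA : List ℕ → ℕ → ℕ
  | [], c => c
  | x :: w, c => trA w (tabA x c)

theorem vecMul_word (w : List ℕ) (hw : ∀ y ∈ w, y < 5) : ∀ c < 4096,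
    vm (enc c) (w.map Ax).prod = enc (trA w c) ∧ trA w c < 4096 := by
  induction w with
  | nil =>
    intro c hc
    exact ⟨vm_one _, hc⟩
  | cons x w ih =>
    intro c hc
    obtain ⟨h1, h2⟩ := bridge x (hw x List.mem_cons_self) c hc
    rw [List.map_cons, List.prod_cons, ← vm_vm, h1]
    exact ih (fun y hy => hw y (List.mem_cons_of_mem _ hy)) _ h2

theorem levA_chk : wchain [0, 1, 2, 3, 4] trA 4096 [] levA = true := by decide +kernel

theorem levA_prod : (levA.map (fun l => l.2.length)).prod = 62400 := by decide +kernel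

theorem card_SU3 : Nat.card SU3 = 62400 := by
  have h := card_SU_mul (n := 3) hF16 (by norm_num)
  rw [card_GU hF16 3] at h
  have e : (4 ^ (3 * (3 - 1) / 2) *
      ∏ i ∈ Finset.range 3, (if Even i then 4 ^ (i + 1) + 1 else 4 ^ (i + 1) - 1)) = 5 * 62400 := by
    decide +kernel
  rw [e] at h
  show Nat.card ↥(Cfsg.SU 3 F16 4) = 62400
  omega

theorem finite_SU3 : Finite SU3 := Nat.finite_of_card_ne_zero (by rw [card_SU3]; norm_num)

theorem card_A_ge : 62400 ≤ Nat.card (Sg vA [0, 1, 2, 3, 4]) := by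
  have := finite_SU3
  have h := card_ge_of_wchain (X := V3) vA [0, 1, 2, 3, 4] code code_inj enc 4096 code_enc trA
    (by
      intro w hw c hc
      have hw5 : ∀ y ∈ w, y < 5 := by
        intro y hy
        have := hw y hy
        simp only [List.mem_cons, List.mem_nil_iff, or_false] at this
        omega
      obtain ⟨h1, h2⟩ := vecMul_word w hw5 c hc
      rw [inv_smul_defA, coe_evalWA, h1, code_enc _ h2]) levA levA_chk
  rw [levA_prod] at h
  exact h

theorem Sg_A_top : Sg vA [0, 1, 2, 3, 4] = ⊤ := by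
  have := finite_SU3
  apply Subgroup.eq_top_of_card_eq
  apply le_antisymm (Subgroup.card_le_card_group _)
  rw [card_SU3]
  exact card_A_ge

end Cfsg.Agent.Lib.Helper93.U34
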