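import Cfsg.Agent.Lib.Helper28.TCChain
import Cfsg.Agent.Lib.Helper93.U34.Gen
import Cfsg.Agent.Lib.Helper93.U34.Data
import Cfsg.Agent.Lib.Helper93.U34.W

/-!
# Five letters in `GL₁₂(5)` satisfying the relations of `U₃(4)` (helper93)
-/

set_option autoImplicit false
set_option maxRecDepth 100000

namespace Cfsg.Agent.Lib.Helper93.U34

open Cfsg.Agent.Lib.Helper28

abbrev M12 : Type := Matrix (Fin 12) (Fin 12) (ZMod 5)

/-- decoding of field elements -/
def ofN5 (a : ℕ) : ZMod 5 := (Fin.ofNat 5 a : Fin 5)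

/-- decoding of `12 × 12` matrices -/
def mat12 (T : ℕ) : M12 := Matrix.of fun i j => ofN5 ((T >>> (3 * (12 * i.val + j.val))) &&& 7)

theorem mat12_ID : mat12 ID12 = 1 := by decide +kernel

/-- the matrices of the letters -/
def Bx (x : ℕ) : M12 := mat12 (BT.getD x ID12)

theorem B_inv : ∀ y < 5, Bx y * Bx (oinv y) = 1 ∧ Bx (oinv y) * Bx y = 1 := by decide +kernel

/-- the letters in `GL₁₂(5)` -/
def vB (x : ℕ) : GL (Fin 12) (ZMod 5) :=
  if h : x < 5 then ⟨Bx x, Bx (oinv x), (B_inv x h).1, (B_inv x h).2⟩ else 1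

theorem Bx_ge (x : ℕ) (h : ¬ x < 5) : Bx x = 1 := by
  unfold Bx
  rw [List.getD_eq_default _ _ (by show 5 ≤ x; omega), mat12_ID]

theorem coe_vB (x : ℕ) : ((vB x : GL (Fin 12) (ZMod 5)) : M12) = Bx x := by
  unfold vB
  split_ifs with h
  · rfl
  · rw [Bx_ge x h]; rfl

theorem coe_evalWB (w : List ℕ) : ((evalW vB w : GL (Fin 12) (ZMod 5)) : M12) = (w.map Bx).prod := by
  induction w with
  | nil => rfl
  | cons x w ih =>
    rw [evalW_cons, Units.val_mul, coe_vB, ih, List.map_cons, List.prod_cons]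

theorem wordB (w Ps : List ℕ) (h : chainG mat12 (fun k => BT.getD k ID12) ID12 w Ps = true) :
    ((evalW vB w : GL (Fin 12) (ZMod 5)) : M12) = mat12 (Ps.getLastD ID12) := by
  rw [coe_evalWB]
  exact prod_of_chainG mat12 _ ID12 mat12_ID w Ps h

theorem rchB_ok : ∀ i < W.length,
    chainG mat12 (fun k => BT.getD k ID12) ID12 (W.getD i []) (rchB.getD i []) = true ∧
    (rchB.getD i []).getLastD ID12 = ID12 := by decide +kernel

theorem vB_W : ∀ w ∈ W, evalW vB w = 1 := by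
  intro w hw
  obtain ⟨i, hi, rfl⟩ := List.getElem_of_mem hw
  obtain ⟨h1, h2⟩ := rchB_ok i hi
  rw [List.getD_eq_getElem _ _ hi] at h1
  apply Units.ext
  rw [wordB _ _ h1, h2, mat12_ID]
  rfl

theorem vB_oinv : ∀ y < 5, vB (oinv y) = (vB y)⁻¹ := by
  intro y hy
  have h : vB y * vB (oinv y) = 1 := by
    apply Units.ext
    rw [Units.val_mul, coe_vB, coe_vB, (B_inv y hy).1]
    rfl
  exact eq_inv_of_mul_eq_one_right h

theorem word13B : ((evalW vB w13 : GL (Fin 12) (ZMod 5)) : M12) = mat12 D13 :=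
  wordB w13 wchB13 (by decide +kernel)

theorem inv13B : mat12 N13 * (mat12 D13 - 1) = 1 := by decide +kernel

end Cfsg.Agent.Lib.Helper93.U34
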