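import Cfsg.Agent.Lib.Helper93.U34.ASide
import Cfsg.Agent.Lib.Helper93.U34.BSide
import Cfsg.Agent.Lib.Helper93.U34.Chain
import Cfsg.Agent.Lib.Helper54.PSUCongr

/-!
# A 12-dimensional representation of `SU₃(4)` over `F₅`, and the prime graph of `U₃(4)` (helper93)
-/

set_option autoImplicit false
set_option maxRecDepth 100000

namespace Cfsg.Agent.Lib.Helper93.U34

open Cfsg.Agent.Lib.Helper28 Cfsg.Agent.Lib.Helper5 Cfsg.Agent.Lib.Helper61
  Cfsg.Agent.Lib.Helper93.HeC

abbrev GL12 : Type := GL (Fin 12) (ZMod 5)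

/-- the diagonal letters -/
def vD (x : ℕ) : SU3 × GL12 := (vA x, vB x)

theorem evalW_vD (w : List ℕ) : evalW vD w = (evalW vA w, evalW vB w) := by
  induction w with
  | nil => rfl
  | cons x w ih => rw [evalW_cons, evalW_cons, evalW_cons, ih]; rfl

/-- the diagonal subgroup -/
def Dg : Subgroup (SU3 × GL12) := Sg vD [0, 1, 2, 3, 4]

theorem Dg_bound : Finite Dg ∧ Nat.card Dg ≤ 62400 := by
  refine bound_0 vD ?_ ?_
  · intro w hw
    rw [evalW_vD, vA_W w hw, vB_W w hw]; rfl
  · intro y hy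
    show (vA (oinv y), vB (oinv y)) = (vA y, vB y)⁻¹
    rw [vA_oinv y hy, vB_oinv y hy]; rfl

theorem Dg_fst : Dg.map (MonoidHom.fst SU3 GL12) = ⊤ := by
  rw [← Sg_A_top]
  unfold Dg Sg
  rw [MonoidHom.map_closure, Set.image_image]
  rfl

/-- the representation -/
theorem exists_rho : ∃ ρ : SU3 →* GL12,
    ∀ w : List ℕ, (∀ y ∈ w, y ∈ [0, 1, 2, 3, 4]) → ρ (evalW vA w) = evalW vB w := by
  have := finite_SU3
  obtain ⟨hf, hc⟩ := Dg_bound
  obtain ⟨ρ, hρ⟩ := exists_hom_of_diag Dg hf (by rw [card_SU3]; exact hc) (by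
    intro a
    have ha : a ∈ Dg.map (MonoidHom.fst SU3 GL12) := by rw [Dg_fst]; exact Subgroup.mem_top a
    obtain ⟨d, hd, rfl⟩ := Subgroup.mem_map.mp ha
    exact ⟨d, hd, rfl⟩)
  refine ⟨ρ, fun w hw => ?_⟩
  have h := hρ (evalW vD w) (evalW_mem_Sg vD _ w hw)
  rw [evalW_vD] at h
  exact h

/-- the inclusion in the monoid of matrices -/
def toM3 : SU3 →* M3 := (Cfsg.slToMat 3 F16).comp (Subgroup.subtype _)

theorem toM3_apply (x : SU3) : toM3 x = x.1.1 := rfl

theorem toM3_inj : Function.Injective toM3 := fun _ _ h => SU_ext h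

theorem orderOf_wordA (w Ps : List ℕ) (C n : ℕ)
    (h : chainG mat3 (fun k => AT.getD k ID3) ID3 w Ps = true) (hC : Ps.getLastD ID3 = C)
    (ho : orderOf (mat3 C) = n) : orderOf (evalW vA w) = n := by
  rw [← orderOf_injective toM3 toM3_inj, toM3_apply, wordA w Ps h, hC, ho]

theorem order15 : orderOf (mat3 C15) = 15 := by
  apply orderOf_eq_of_pow_and_pow_div_prime (by norm_num)
  · rw [pow_of_chainG mat3 ID3 mat3_ID C15 15 pch15 (by decide +kernel)]
    exact mat3_ID
  · intro p hp hd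
    have hle : p ≤ 15 := Nat.le_of_dvd (by norm_num) hd
    have hp' : p = 3 ∨ p = 5 := by
      interval_cases p <;> simp_all (config := { decide := true })
    rcases hp' with rfl | rfl
    · rw [show 15 / 3 = 5 from rfl,
        pow_of_chainG mat3 ID3 mat3_ID C15 5 (pch15.take 5) (by decide +kernel)]
      decide +kernel
    · rw [show 15 / 5 = 3 from rfl,
        pow_of_chainG mat3 ID3 mat3_ID C15 3 (pch15.take 3) (by decide +kernel)]
      decide +kernel

theorem order10 : orderOf (mat3 C10) = 10 := by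
  apply orderOf_eq_of_pow_and_pow_div_prime (by norm_num)
  · rw [pow_of_chainG mat3 ID3 mat3_ID C10 10 pch10 (by decide +kernel)]
    exact mat3_ID
  · intro p hp hd
    have hle : p ≤ 10 := Nat.le_of_dvd (by norm_num) hd
    have hp' : p = 2 ∨ p = 5 := by
      interval_cases p <;> simp_all (config := { decide := true })
    rcases hp' with rfl | rfl
    · rw [show 10 / 2 = 5 from rfl,
        pow_of_chainG mat3 ID3 mat3_ID C10 5 (pch10.take 5) (by decide +kernel)]
      decide +kernel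
    · rw [show 10 / 5 = 2 from rfl,
        pow_of_chainG mat3 ID3 mat3_ID C10 2 (pch10.take 2) (by decide +kernel)]
      decide +kernel

theorem order13 : orderOf (mat3 C13) = 13 := by
  have : Fact (Nat.Prime 13) := ⟨by norm_num⟩
  apply orderOf_eq_prime
  · rw [pow_of_chainG mat3 ID3 mat3_ID C13 13 pch13 (by decide +kernel)]
    exact mat3_ID
  · decide +kernel

theorem prime_dvd_card (s : ℕ) (hs : s.Prime) (hd : s ∣ 62400) :
    s = 2 ∨ s = 3 ∨ s = 5 ∨ s = 13 := by
  rw [show 62400 = 2 ^ 6 * (3 * (5 ^ 2 * 13)) by norm_num] at hd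
  rcases hs.dvd_mul.mp hd with h | h
  · exact Or.inl ((Nat.prime_dvd_prime_iff_eq hs (by norm_num)).mp (hs.dvd_of_dvd_pow h))
  rcases hs.dvd_mul.mp h with h | h
  · exact Or.inr (Or.inl ((Nat.prime_dvd_prime_iff_eq hs (by norm_num)).mp h))
  rcases hs.dvd_mul.mp h with h | h
  · exact Or.inr (Or.inr (Or.inl
      ((Nat.prime_dvd_prime_iff_eq hs (by norm_num)).mp (hs.dvd_of_dvd_pow h))))
  · exact Or.inr (Or.inr (Or.inr ((Nat.prime_dvd_prime_iff_eq hs (by norm_num)).mp h)))

instance instFactPrimeFive : Fact (Nat.Prime 5) := ⟨by norm_num⟩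

/-- there are arbitrarily large finite groups with the prime graph of `SU₃(4)` -/
theorem large_samePG (B : ℕ) :
    ∃ (H : Type) (_ : Group H) (_ : Fintype H), B < Fintype.card H ∧ SamePG SU3 H := by
  have := finite_SU3
  obtain ⟨ρ, hρ⟩ := exists_rho
  have o15 := orderOf_wordA w15 wch15 C15 15 (by decide +kernel) (by decide +kernel) order15
  have o10 := orderOf_wordA w10 wch10 C10 10 (by decide +kernel) (by decide +kernel) order10
  have o13 := orderOf_wordA w13 wch13 C13 13 (by decide +kernel) (by decide +kernel) order13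
  have e13 : ((ρ (evalW vA w13) : GL12) : M12) = mat12 D13 := by
    rw [hρ w13 (by decide), word13B]
  apply PGExt.exists_large_samePG' (F := ZMod 5) 5 (by norm_num) (by norm_num) ρ
    (by rw [card_SU3]; norm_num)
  intro s hs hs5 g v hg hv hgv
  have hd : s ∣ 62400 := by rw [← card_SU3, ← hg]; exact orderOf_dvd_natCard g
  rcases prime_dvd_card s hs hd with rfl | rfl | rfl | rfl
  · exact ⟨_, o10⟩
  · exact ⟨_, o15⟩
  · exact absurd rfl hs5
  · exfalso
    apply hv
    refine no_fix_of_conj' ρ 13 4800 hs (by rw [card_SU3]) (by norm_num) _ o13 ?_ g hg v hgv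
    intro v' hv'
    rw [e13] at hv'
    exact no_fix_of_inv _ _ inv13B v' hv'

/-- `PSU₃(4) = SU₃(4)` -/
theorem psu_equiv : Nonempty (Cfsg.PSU 3 F16 4 ≃* SU3) := by
  have h1 : Nat.card (Subgroup.center SU3) = 1 := by
    rw [card_center_SU hF16 (by norm_num)]
    rfl
  have h2 : Subgroup.center SU3 = ⊥ := Subgroup.eq_bot_of_card_eq _ h1
  exact ⟨(QuotientGroup.quotientMulEquivOfEq h2).trans QuotientGroup.quotientBot⟩

end Cfsg.Agent.Lib.Helper93.U34
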